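import Cfsg.Agent.LeechSimple.McL
import Cfsg.Agent.Fus.MatM22
import Cfsg.Prelude.Def_Spor_Conway

/-!
# The 2-fusion system of McL is simple (owner: helper7)

The Sylow 2-subgroup of `M22 ≤ McL` is a Sylow 2-subgroup of `McL`, and it is self-normalizing in `McL` since it fixes
a unique vector of the right type.
-/

set_option autoImplicit false

namespace Cfsg.Agent.LeechSimple

open Cfsg MulAction Cfsg.Agent.Leech Cfsg.Agent.Fus Cfsg.Agent.Fus.Mat Cfsg.Agent.Golay

/-- `isSimple_of_subgroup` for an isomorphic copy. -/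
theorem isSimple_of_subgroup_iso {Ω : Type*} [Group Ω] {p : ℕ} [Fact p.Prime] (G : Subgroup Ω) [Finite G]
    {H : Type*} [Group H] [Finite H] (e : G ≃* H) (U : Subgroup Ω) (hUG : U ≤ G)
    (hN : ∀ n ∈ G, n ∈ Subgroup.normalizer (U : Set Ω) → ∃ k : ℕ, n ^ p ^ k = 1)
    (m : ℕ) (hm : ¬ p ∣ m) (hcard : Nat.card G ∣ Nat.card U * m)
    (Z : Set Ω) (hcen : ∀ c ∈ U, (∀ u ∈ U, u * c = c * u) → c = 1 ∨ c ∈ Z) (hZ : Z ⊆ U) (hU1 : U ≠ ⊥)
    (hgen : ∀ T : Subgroup Ω, T ≤ U → (∃ z ∈ Z, z ∈ T) → (∀ x ∈ T, ∀ g ∈ G, g * x * g⁻¹ ∈ U → g * x * g⁻¹ ∈ T) →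
      U ≤ T)
    (S : Sylow p H) : (groupFusionSystem (S : Subgroup H)).IsSimple p := by
  classical
  have hp : p.Prime := Fact.out
  have hUfin : Finite U := Finite.of_injective (Subgroup.inclusion hUG) (Subgroup.inclusion_injective hUG)
  set N : Subgroup Ω := G ⊓ Subgroup.normalizer (U : Set Ω) with hNdef
  have hNfin : Finite N := Finite.of_injective (Subgroup.inclusion (inf_le_left : N ≤ G))
    (Subgroup.inclusion_injective _)
  have hNp : IsPGroup p N := by
    rintro ⟨n, hn⟩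
    obtain ⟨k, hk⟩ := hN n hn.1 hn.2
    exact ⟨k, Subtype.ext hk⟩
  have hUN : U ≤ N := le_inf hUG Subgroup.le_normalizer
  have hUp : IsPGroup p U := hNp.to_le hUN
  have hNU : N ≤ U := by
    obtain ⟨a, ha⟩ := hNp.exists_card_eq
    obtain ⟨b, hb⟩ := hUp.exists_card_eq
    have h1 : Nat.card N ∣ Nat.card G := Subgroup.card_dvd_of_le inf_le_left
    have h2 : p ^ a ∣ p ^ b * m := by
      rw [← ha, ← hb]; exact h1.trans hcard
    have h3 : Nat.Coprime (p ^ a) m := Nat.Coprime.pow_left _ ((Nat.Prime.coprime_iff_not_dvd hp).mpr hm)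
    have h4 : p ^ a ∣ p ^ b := h3.dvd_of_dvd_mul_right h2
    have h5 : Nat.card N ≤ Nat.card U := by
      rw [ha, hb]; exact Nat.le_of_dvd (pow_pos hp.pos _) h4
    exact (Subgroup.eq_of_le_of_card_ge hUN h5).ge
  have hnorm : ∀ g : G, g ∈ Subgroup.normalizer ((U.subgroupOf G : Subgroup G) : Set G) → (g : Ω) ∈ U := by
    intro g hg
    apply hNU
    refine ⟨g.2, ?_⟩
    apply mem_normalizer_of_conj
    intro x hx
    exact (Subgroup.mem_normalizer_iff.mp hg ⟨x, hUG hx⟩).mp hx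
  refine isSimple_of_cover (X := G) e.toMonoidHom e.surjective ?_ ?_ (U.subgroupOf G) ?_ ?_ ?_ ?_ ?_ S
  · intro z hz x
    have hz' : z = 1 := (MulEquiv.map_eq_one_iff e).1 hz
    rw [hz', mul_one, one_mul]
  · intro z hz _
    exact (MulEquiv.map_eq_one_iff e).1 hz
  · exact hUp.of_injective (Subgroup.subgroupOfEquivOfLe hUG).toMonoidHom
      (Subgroup.subgroupOfEquivOfLe hUG).injective
  · intro h
    apply hU1
    rw [Subgroup.subgroupOf_eq_bot] at h
    rw [eq_bot_iff]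
    exact fun x hx => h.le_bot ⟨hx, hUG hx⟩
  · intro g hg _
    exact hnorm g hg
  · intro T hTU hT1 hT
    have hfS : Finite (U.subgroupOf G) := inferInstance
    have hUp' : IsPGroup p (U.subgroupOf G) := hUp.of_injective (Subgroup.subgroupOfEquivOfLe hUG).toMonoidHom
      (Subgroup.subgroupOfEquivOfLe hUG).injective
    obtain ⟨c, hc, hc1, hcc⟩ := exists_central_of_normal hUp' hTU (fun s hs t ht => hT t ht s
      ((U.subgroupOf G).mul_mem ((U.subgroupOf G).mul_mem hs (hTU ht)) ((U.subgroupOf G).inv_mem hs))) hT1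
    have h1 : (c : Ω) ∈ Z := by
      rcases hcen c (hTU hc) (fun u hu => congrArg Subtype.val (hcc ⟨u, hUG hu⟩ hu)) with h | h
      · exact absurd (Subtype.ext h) hc1
      · exact h
    have h2 := hgen (T.map G.subtype) ?_ ⟨c, h1, ⟨c, hc, rfl⟩⟩ ?_
    · intro x hx
      obtain ⟨y, hy, hyx⟩ := h2 (hx : (x : Ω) ∈ U)
      have : y = x := Subtype.ext hyx
      rwa [← this]
    · rintro _ ⟨y, hy, rfl⟩
      exact hTU hy
    · rintro _ ⟨y, hy, rfl⟩ g hg hgy
      exact ⟨⟨g, hg⟩ * y * ⟨g, hg⟩⁻¹, hT y hy ⟨g, hg⟩ hgy, rfl⟩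
  · intro g hg
    have hgU : g ∈ U.subgroupOf G := hnorm g hg
    refine Subgroup.subset_closure ⟨hg, U.subgroupOf G, le_rfl, ?_, Subgroup.subset_closure ⟨hg, Or.inr (Or.inr hgU)⟩⟩
    intro c hc
    refine ⟨c, ?_, rfl⟩
    apply hnorm
    apply mem_normalizer_of_conj
    intro x hx
    have h1 := hc x hx
    have h2 : c * x * c⁻¹ = x := by rw [← h1]; group
    rw [h2]
    exact hx

/-! ### The subgroup -/

theorem validL22 : validL LM22 = true := allL_iff.mpr fun n hn => (valM22_spec n (allL_iff.mp inG_M22 n hn)).1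

theorem UL_le_M22 : UL LM22 ≤ Spor.M22 := by
  unfold UL
  rw [Subgroup.closure_le]
  rintro _ ⟨n, hn, rfl⟩
  exact (valM22_spec n (allL_iff.mp inG_M22 n hn)).2

theorem M22_le_M24 : Spor.M22 ≤ M24 := inf_le_left.trans inf_le_left

/-- The copy of the Sylow 2-subgroup of `M22` in `Co0`. -/
def U22 : Subgroup Co0 := ((UL LM22).subgroupOf M24).map piHom

theorem mem_U22 {g : Co0} : g ∈ U22 ↔ ∃ σ : M24, (σ : Equiv.Perm GolayPt) ∈ UL LM22 ∧ piHom σ = g := Iff.rfl

theorem U22_le : U22 ≤ mclSub := by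
  rintro _ ⟨σ, hσ, rfl⟩
  have h := UL_le_M22 hσ
  exact M22'_le_mcl ⟨σ, ⟨h.1.2, h.2⟩, rfl⟩

/-- labels of points -/
def lab1 (i : ℕ) : ℕ := e10 labM22 (25 * i)

/-- Vectors fixed by the Sylow subgroup are constant on orbits. -/
theorem fixed_const {y : leechLattice} (h : ∀ u ∈ U22, u • y = y) {i j : GolayPt} (hij : lab1 (idx i) = lab1 (idx j)) :
    (y : GolayPt → ℤ) i = (y : GolayPt → ℤ) j := by
  have h1 : e10 labM22 (code i i) = e10 labM22 (code j j) := by
    rw [code_self, code_self]; exact hij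
  obtain ⟨u, hu, h2, -⟩ := (lab_eq_iff validL22 labCheck_M22).1 h1
  have h3 : (piHom ⟨u, M22_le_M24 (UL_le_M22 hu)⟩) • y = y := h _ ⟨_, hu, rfl⟩
  have h4 := piHom_apply ⟨u, M22_le_M24 (UL_le_M22 hu)⟩ y j
  rw [h3] at h4
  rw [h4, ← h2]
  show _ = (y : GolayPt → ℤ) (u.symm (u i))
  rw [Equiv.symm_apply_apply]

theorem sum_pt (f : GolayPt → ℤ) : ∑ i, f i = ∑ n ∈ Finset.range 24, f (pt n) := by
  rw [← Fin.sum_univ_eq_sum_range (fun n => f (pt n)) 24]
  exact (Equiv.sum_comp ptEquiv f).symm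

theorem pt_vals : pt 23 = none ∧ pt 0 = some 0 := ⟨rfl, rfl⟩

theorem int_case {a b c d e : ℤ} (h1 : a + b = 8) (h2 : -5 * a - b - (2 * c + 4 * d + 16 * e) = -40)
    (h3 : a ^ 2 + b ^ 2 + 2 * c ^ 2 + 4 * d ^ 2 + 16 * e ^ 2 = 64) : a = 8 := by
  obtain rfl : b = 8 - a := by omega
  have h4 : c + 2 * d + 8 * e = 16 - 2 * a := by omega
  have h5 : a ^ 2 - 8 * a + c ^ 2 + 2 * d ^ 2 + 8 * e ^ 2 = 0 := by nlinarith
  have h6 : (c + 2 * d + 8 * e) ^ 2 ≤ 11 * (c ^ 2 + 2 * d ^ 2 + 8 * e ^ 2) := by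
    nlinarith [sq_nonneg (c - d), sq_nonneg (c - e), sq_nonneg (d - e)]
  rw [h4] at h6
  have ha0 : 0 ≤ a := by nlinarith [sq_nonneg c, sq_nonneg d, sq_nonneg e]
  have ha8 : a ≤ 8 := by nlinarith [sq_nonneg c, sq_nonneg d, sq_nonneg e]
  have he1 : e ≤ 1 := by nlinarith [sq_nonneg c, sq_nonneg d, sq_nonneg (a - 4)]
  have he2 : -1 ≤ e := by nlinarith [sq_nonneg c, sq_nonneg d, sq_nonneg (a - 4)]
  have hd1 : d ≤ 2 := by nlinarith [sq_nonneg c, sq_nonneg e, sq_nonneg (a - 4)]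
  have hd2 : -2 ≤ d := by nlinarith [sq_nonneg c, sq_nonneg e, sq_nonneg (a - 4)]
  obtain rfl : c = 16 - 2 * a - 2 * d - 8 * e := by omega
  interval_cases a <;> interval_cases e <;> interval_cases d <;> omega

theorem dotU (w : GolayPt → ℤ) : dotInt Spor.vecU w = 4 * (w none + w (some 0)) := by
  have h : Spor.vecU = (Pi.single none 4 : GolayPt → ℤ) + Pi.single (some 0) 4 := by
    funext p
    unfold Spor.vecU
    rw [Pi.add_apply, Pi.single_apply, Pi.single_apply]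
    by_cases h1 : p = none
    · subst h1; simp
    · by_cases h2 : p = some 0
      · subst h2; simp
      · simp [h1, h2]
  rw [h, dotInt_add_left, dotInt_comm, dot_single, dotInt_comm, dot_single]
  ring

theorem dotV (w : GolayPt → ℤ) : dotInt Spor.vecV w = -4 * w none - ∑ i, w i := by
  have h : Spor.vecV = (Pi.single none (-4) : GolayPt → ℤ) + (fun _ => -1) := by
    funext p
    unfold Spor.vecV
    rw [Pi.add_apply, Pi.single_apply]
    by_cases h1 : p = none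
    · subst h1; simp
    · simp [h1]
  rw [h, dotInt_add_left, dotInt_comm, dot_single]
  have h2 : dotInt (fun _ => -1) w = - ∑ i, w i := by
    unfold dotInt
    rw [← Finset.sum_neg_distrib]
    exact Finset.sum_congr rfl (fun i _ => by ring)
  rw [h2]
  ring

theorem fixed_unique {y : leechLattice} (h : ∀ u ∈ U22, u • y = y) (hn : sqNorm (y : GolayPt → ℤ) = 64)
    (hV : dotInt (Spor.leechV : GolayPt → ℤ) (y : GolayPt → ℤ) = -40)
    (hU : dotInt (Spor.leechU : GolayPt → ℤ) (y : GolayPt → ℤ) = 32) : y = e8 none := by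
  have h2 : (y : GolayPt → ℤ) (pt 2) = (y : GolayPt → ℤ) (pt 1) := fixed_const h (by decide +kernel)
  have h5 : (y : GolayPt → ℤ) (pt 5) = (y : GolayPt → ℤ) (pt 3) := fixed_const h (by decide +kernel)
  have h6 : (y : GolayPt → ℤ) (pt 6) = (y : GolayPt → ℤ) (pt 4) := fixed_const h (by decide +kernel)
  have h7 : (y : GolayPt → ℤ) (pt 7) = (y : GolayPt → ℤ) (pt 4) := fixed_const h (by decide +kernel)
  have h8 : (y : GolayPt → ℤ) (pt 8) = (y : GolayPt → ℤ) (pt 4) := fixed_const h (by decide +kernel)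
  have h9 : (y : GolayPt → ℤ) (pt 9) = (y : GolayPt → ℤ) (pt 4) := fixed_const h (by decide +kernel)
  have h10 : (y : GolayPt → ℤ) (pt 10) = (y : GolayPt → ℤ) (pt 4) := fixed_const h (by decide +kernel)
  have h11 : (y : GolayPt → ℤ) (pt 11) = (y : GolayPt → ℤ) (pt 4) := fixed_const h (by decide +kernel)
  have h12 : (y : GolayPt → ℤ) (pt 12) = (y : GolayPt → ℤ) (pt 4) := fixed_const h (by decide +kernel)
  have h13 : (y : GolayPt → ℤ) (pt 13) = (y : GolayPt → ℤ) (pt 4) := fixed_const h (by decide +kernel)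
  have h14 : (y : GolayPt → ℤ) (pt 14) = (y : GolayPt → ℤ) (pt 3) := fixed_const h (by decide +kernel)
  have h15 : (y : GolayPt → ℤ) (pt 15) = (y : GolayPt → ℤ) (pt 4) := fixed_const h (by decide +kernel)
  have h16 : (y : GolayPt → ℤ) (pt 16) = (y : GolayPt → ℤ) (pt 4) := fixed_const h (by decide +kernel)
  have h17 : (y : GolayPt → ℤ) (pt 17) = (y : GolayPt → ℤ) (pt 3) := fixed_const h (by decide +kernel)
  have h18 : (y : GolayPt → ℤ) (pt 18) = (y : GolayPt → ℤ) (pt 4) := fixed_const h (by decide +kernel)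
  have h19 : (y : GolayPt → ℤ) (pt 19) = (y : GolayPt → ℤ) (pt 4) := fixed_const h (by decide +kernel)
  have h20 : (y : GolayPt → ℤ) (pt 20) = (y : GolayPt → ℤ) (pt 4) := fixed_const h (by decide +kernel)
  have h21 : (y : GolayPt → ℤ) (pt 21) = (y : GolayPt → ℤ) (pt 4) := fixed_const h (by decide +kernel)
  have h22 : (y : GolayPt → ℤ) (pt 22) = (y : GolayPt → ℤ) (pt 4) := fixed_const h (by decide +kernel)
  have e0 : (y : GolayPt → ℤ) none = 8 := by
    apply int_case (a := (y : GolayPt → ℤ) (pt 23)) (b := (y : GolayPt → ℤ) (pt 0)) (c := (y : GolayPt → ℤ) (pt 1))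
      (d := (y : GolayPt → ℤ) (pt 3)) (e := (y : GolayPt → ℤ) (pt 4))
    · have h1 : dotInt (Spor.leechU : GolayPt → ℤ) (y : GolayPt → ℤ) = 4 * ((y : GolayPt → ℤ) (pt 23) +
          (y : GolayPt → ℤ) (pt 0)) := dotU (y : GolayPt → ℤ)
      linarith
    · have h1 : dotInt (Spor.leechV : GolayPt → ℤ) (y : GolayPt → ℤ) = -4 * (y : GolayPt → ℤ) (pt 23) -
          ∑ i, (y : GolayPt → ℤ) i := dotV (y : GolayPt → ℤ)
      rw [hV, sum_pt] at h1
      simp only [Finset.sum_range_succ, Finset.sum_range_zero, h2, h5, h6, h7, h8, h9, h10, h11, h12, h13, h14, h15, h16, h17, h18, h19, h20, h21, h22] at h1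
      linarith
    · have h1 := hn
      unfold sqNorm at h1
      rw [sum_pt] at h1
      simp only [Finset.sum_range_succ, Finset.sum_range_zero, h2, h5, h6, h7, h8, h9, h10, h11, h12, h13, h14, h15, h16, h17, h18, h19, h20, h21, h22] at h1
      linarith
  apply Subtype.ext
  funext i
  rw [e8_apply]
  by_cases hi : i = none
  · rw [if_pos hi, hi, e0]
  · rw [if_neg hi]
    have h1 := norm_ge_two (w := (y : GolayPt → ℤ)) (a := none) (b := i) (fun h => hi h.symm)
    rw [hn, e0] at h1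
    have h2 : (y : GolayPt → ℤ) i ^ 2 ≤ 0 := by linarith
    have h3 : (y : GolayPt → ℤ) i ^ 2 = 0 := le_antisymm h2 (sq_nonneg _)
    exact pow_eq_zero_iff (by norm_num) |>.1 h3

theorem norm_e8' (i : GolayPt) : sqNorm (e8 i : GolayPt → ℤ) = 64 := norm_e8 i

/-- An element of McL normalizing `U22` is in `M22`. -/
theorem norm_in_M22 {n : Co0} (hn : n ∈ mclSub) (h : n ∈ Subgroup.normalizer (U22 : Set Co0)) :
    n • e8 none = e8 none := by
  have hV : n • Spor.leechV = Spor.leechV := hn.1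
  have hU : n • Spor.leechU = Spor.leechU := hn.2
  have hfix : ∀ u ∈ U22, u • e8 none = e8 none := by
    rintro _ ⟨σ, hσ, rfl⟩
    exact piHom_fix_e8 (UL_le_M22 hσ).1.2
  apply fixed_unique
  · intro u hu
    have h1 : n⁻¹ * u * n ∈ U22 := by
      have := (Subgroup.mem_normalizer_iff.1 (Subgroup.inv_mem _ h) u).1 hu
      rwa [inv_inv] at this
    have h2 := hfix _ h1
    rw [mul_smul, mul_smul, inv_smul_eq_iff] at h2
    exact h2
  · rw [co0_norm]; exact norm_e8' none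
  · have := co0_dot n Spor.leechV (e8 none)
    rw [hV] at this
    rw [this, dot_V_e8]
  · have := co0_dot n Spor.leechU (e8 none)
    rw [hU] at this
    rw [this, dot_U_e8]

theorem hN_mcl {n : Co0} (hn : n ∈ mclSub) (h : n ∈ Subgroup.normalizer (U22 : Set Co0)) : ∃ k : ℕ, n ^ 2 ^ k = 1 := by
  have h1 := norm_in_M22 hn h
  obtain ⟨σ, h2, rfl⟩ := perm_of_fix h1 hn.1
  have h3 : (σ : Equiv.Perm GolayPt) ∈ Subgroup.normalizer ((UL LM22 : Subgroup (Equiv.Perm GolayPt)) : Set (Equiv.Perm GolayPt)) := by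
    have key : ∀ τ : M24, piHom τ ∈ Subgroup.normalizer (U22 : Set Co0) → ∀ u ∈ UL LM22,
        (τ : Equiv.Perm GolayPt) * u * (τ : Equiv.Perm GolayPt)⁻¹ ∈ UL LM22 := by
      intro τ hτ u hu
      obtain ⟨v, hv, hv2⟩ := (Subgroup.mem_normalizer_iff.1 hτ (piHom ⟨u, M22_le_M24 (UL_le_M22 hu)⟩)).1 ⟨_, hu, rfl⟩
      rw [← map_inv, ← map_mul, ← map_mul] at hv2
      have h4 := piHom_injective hv2
      have h5 : (v : Equiv.Perm GolayPt) = (τ : Equiv.Perm GolayPt) * u * (τ : Equiv.Perm GolayPt)⁻¹ :=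
        congrArg Subtype.val h4
      rw [← h5]
      exact hv
    rw [Subgroup.mem_normalizer_iff]
    intro u
    constructor
    · exact key σ h u
    · intro hu
      have h5 := key σ⁻¹ (by rw [map_inv]; exact Subgroup.inv_mem _ h) _ hu
      have h6 : (σ⁻¹ : M24).1 * ((σ : Equiv.Perm GolayPt) * u * (σ : Equiv.Perm GolayPt)⁻¹) * ((σ⁻¹ : M24).1)⁻¹ = u := by
        show (σ : Equiv.Perm GolayPt)⁻¹ * ((σ : Equiv.Perm GolayPt) * u * (σ : Equiv.Perm GolayPt)⁻¹) * (σ : Equiv.Perm GolayPt)⁻¹⁻¹ = u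
        group
      rw [h6] at h5
      exact h5
  obtain ⟨k, hk⟩ := pow_eq_one_of_check validL22 labCheck_M22 szCheck_M22 (P := 0) (ks := ksM22) (by decide)
    chainCheck_M22 h3 (fun x => by simp)
  refine ⟨k, ?_⟩
  rw [← map_pow]
  have h4 : σ ^ 2 ^ k = 1 := Subtype.ext hk
  rw [h4, map_one]

/-- The 2-fusion system of a group isomorphic to McL is simple. -/
theorem mcl_fusion {H : Type*} [Group H] [Finite H] (e : mclSub ≃* H) (S : Sylow 2 H) :
    (groupFusionSystem (S : Subgroup H)).IsSimple 2 := by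
  have : Fact (Nat.Prime 2) := ⟨Nat.prime_two⟩
  have hord : 2 ^ 7 ≤ Nat.card (UL LM22) := (Nat.le_of_ble_eq_true ord_M22).trans (ordLB_le' validL22 lvCheck_M22)
  have hcU : Nat.card U22 = Nat.card (UL LM22) := by
    have h1 : Nat.card U22 = Nat.card ((UL LM22).subgroupOf M24) :=
      (Nat.card_congr (Subgroup.equivMapOfInjective _ piHom piHom_injective).toEquiv).symm
    rw [h1]
    exact Nat.card_congr (Subgroup.subgroupOfEquivOfLe (UL_le_M22.trans M22_le_M24)).toEquiv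
  have hUp : IsPGroup 2 U22 := by
    rintro ⟨n, hn⟩
    obtain ⟨j, hj⟩ := hN_mcl (U22_le hn) (Subgroup.le_normalizer hn)
    exact ⟨j, Subtype.ext hj⟩
  have hfU : Finite U22 := Nat.finite_of_card_ne_zero (by rw [hcU]; have := Nat.two_pow_pos 7; omega)
  obtain ⟨a, ha⟩ := hUp.exists_card_eq
  have hz0 : permOf (LM22.getD 0 idTab) ∈ UL LM22 := permOf_getD_mem LM22 0
  set z : M24 := ⟨permOf (LM22.getD 0 idTab), M22_le_M24 (UL_le_M22 hz0)⟩ with hz
  refine isSimple_of_subgroup_iso mclSub e U22 U22_le (fun n hn h => hN_mcl hn h) 7016625 (by norm_num) ?_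
    {piHom z} ?_ ?_ ?_ ?_ S
  · rw [card_mcl, ha]
    have h7 : 7 ≤ a := by
      rw [← hcU, ha] at hord
      exact (Nat.pow_le_pow_iff_right (by norm_num)).1 hord
    have h8 : 2 ^ 7 * 7016625 ∣ 2 ^ a * 7016625 := Nat.mul_dvd_mul_right (pow_dvd_pow 2 h7) _
    exact h8
  · rintro _ ⟨c, hc, rfl⟩ hcc
    rcases cen_of_check validL22 labCheck_M22 szCheck_M22 cenCheck_M22 (UL_le_M22.trans M22_le_M24) (c := c) hc
      (by
        intro u hu
        have h1 := hcc (piHom ⟨u, M22_le_M24 (UL_le_M22 hu)⟩) ⟨_, hu, rfl⟩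
        rw [← map_mul, ← map_mul] at h1
        exact congrArg Subtype.val (piHom_injective h1)) with h1 | ⟨y, hy, h1⟩
    · left
      have h2 : c = 1 := Subtype.ext h1
      rw [h2, map_one]
    · right
      rw [List.mem_singleton] at hy
      subst hy
      rw [Set.mem_singleton_iff]
      congr 1
      exact Subtype.ext (permOf_eq (validL_getD validL22 0) h1).symm
  · rintro _ rfl
    exact ⟨z, hz0, rfl⟩
  · intro hb
    rw [hb, Subgroup.card_bot] at hcU
    rw [← hcU] at hord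
    norm_num at hord
  · rintro T hTU ⟨z', hz', hzT⟩ hT
    rw [Set.mem_singleton_iff] at hz'
    subst hz'
    have h1 : UL LM22 ≤ (T.comap piHom).map M24.subtype := by
      apply fus_of_check (G := Spor.M22) valM22_spec validL22 fusCheck_M22
      · exact ⟨z, hzT, rfl⟩
      · rintro _ ⟨x, hx, rfl⟩ g hg hgx
        refine ⟨⟨g, M22_le_M24 hg⟩ * x * ⟨g, M22_le_M24 hg⟩⁻¹, ?_, rfl⟩
        show piHom _ ∈ T
        rw [map_mul, map_mul, map_inv]
        apply hT _ hx
        · exact M22'_le_mcl ⟨⟨g, M22_le_M24 hg⟩, ⟨hg.1.2, hg.2⟩, rfl⟩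
        · rw [← map_inv, ← map_mul, ← map_mul]
          exact ⟨_, hgx, rfl⟩
    rintro _ ⟨x, hx, rfl⟩
    obtain ⟨y, hy, hyx⟩ := h1 hx
    have : y = x := Subtype.ext hyx
    rw [← this]
    exact hy

/-- The prelude group `Spor.McL` is the joint stabiliser. -/
noncomputable def mclEquiv : mclSub ≃* Spor.McL where
  toFun x := ⟨((x : Co0) : Equiv.Perm leechLattice), ⟨⟨(x : Co0).2, x.2.1⟩, x.2.2⟩⟩
  invFun y := ⟨⟨y.1, y.2.1.1⟩, ⟨y.2.1.2, y.2.2⟩⟩
  left_inv _ := rfl
  right_inv _ := rfl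
  map_mul' _ _ := rfl

end Cfsg.Agent.LeechSimple
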