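import Cfsg.Agent.LeechSimple.McL
import Cfsg.Agent.Leech.Orders

/-!
# HS, Co2, Co1 (owner: helper7)
-/

set_option autoImplicit false
open Cfsg MulAction Cfsg.Agent.Leech

namespace Cfsg.Agent.LeechSimple

theorem dot_V_U' : dotInt (Spor.leechV : GolayPt → ℤ) (Spor.leechU' : GolayPt → ℤ) = -16 := by
  decide +kernel

theorem card_hs : Nat.card hsSub = 44352000 := card_stab_48_16 _ _ norm_leechV norm_leechU' dot_V_U'

theorem simple_hsSub : IsSimpleGroup hsSub := simple_hs card_hs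

theorem isHS_pair (v w : leechLattice) (hv : sqNorm (v : GolayPt → ℤ) = 48) (hw : sqNorm (w : GolayPt → ℤ) = 48)
    (hvw : dotInt (v : GolayPt → ℤ) (w : GolayPt → ℤ) = -32) :
    Nonempty ((stabilizer Co0 v ⊓ stabilizer Co0 w : Subgroup Co0) ≃* hsSub) := by
  have h1 : sqNorm ((-(v + w) : leechLattice) : GolayPt → ℤ) = 32 := by rw [norm_neg_add, hv, hw, hvw]; norm_num
  have h2 : dotInt (v : GolayPt → ℤ) ((-(v + w) : leechLattice) : GolayPt → ℤ) = -16 := by
    rw [dot_neg_add, hv, hvw]; norm_num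
  obtain ⟨g, h3, h4⟩ := trans_pair_48 v (-(v + w)) Spor.leechV Spor.leechU' hv h1 norm_leechV norm_leechU' h2 dot_V_U'
  exact ⟨(MulEquiv.subgroupCongr (stab_neg_add v w)).trans (pairEquiv g h3 h4)⟩

end Cfsg.Agent.LeechSimple
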